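import Mathlib

/-! The linear algebra for `J1S/U3`. -/

set_option autoImplicit false

namespace Cfsg.Agent.J1S

theorem u3_core {M : Type*} [AddCommGroup M] (ρ f : M →+ M) (m : ℕ) (u a : M)
    (h8 : ∀ w : M, (8 * m) • w = 0) (ker : ∀ w : M, (4 * m) • w = 0 → ∃ y, w = y + y)
    (r3 : ∀ w, ρ (ρ (ρ w)) = w) (ru : ρ u = u) (f2 : ∀ w, f (f w) = w)
    (fr : ∀ w, f (ρ (f (ρ (f (ρ w))))) = w) (fu : f (m • u) = m • u)
    (fz : ∀ w, (4 * m) • (f w - w) = 0 ∨ (4 * m) • (f w - w) = (4 * m) • u)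
    (fn : ∃ w, (4 * m) • (f w - w) ≠ 0)
    (hE : ∀ w : M, ∃ i j k : ℕ, j < 2 ∧ k < 2 ∧ (4 * m) • w = (4 * m) • (i • u + j • a + k • ρ a))
    (ar : a + ρ a + ρ (ρ a) = 0) : False := by
  obtain ⟨P, hP⟩ : ∃ P : M →+ M, ∀ w, P w = 2 • w - ρ w - ρ (ρ w) :=
    ⟨2 • AddMonoidHom.id M - ρ - ρ.comp ρ, fun w => by simp⟩
  have Pu : P u = 0 := by rw [hP, ru, ru]; module
  have Pρ : ∀ w, P (ρ w) = ρ (P w) := fun w => by simp only [hP, map_sub, map_nsmul]
  have QP : ∀ w, P w + ρ (P w) + ρ (ρ (P w)) = 0 := fun w => by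
    simp only [hP, map_sub, map_nsmul, r3]; module
  have Pa : P a = 3 • a := by rw [hP]; linear_combination (norm := module) -ar
  have dec : ∀ w, ∃ (i : ℕ) (c : M), f w = w + i • u + 2 • c := fun w => by
    rcases fz w with h | h
    · obtain ⟨y, hy⟩ := ker _ h
      exact ⟨0, y, by linear_combination (norm := module) hy⟩
    · obtain ⟨y, hy⟩ := ker (f w - w - u) (by rw [smul_sub, h, sub_self])
      exact ⟨1, y, by linear_combination (norm := module) hy⟩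
  obtain ⟨γ, hγ⟩ : ∃ γ : M →+ M, ∀ w, γ w = (2 * m) • P (f w - w) :=
    ⟨(2 * m) • P.comp (f - AddMonoidHom.id M), fun w => by simp⟩
  have fu' : m • f u = m • u := by rw [← map_nsmul, fu]
  have Pfu : m • P (f u) = 0 := by rw [← map_nsmul, fu', map_nsmul, Pu, smul_zero]
  have γu : γ u = 0 := by
    rw [hγ, map_sub, Pu]; linear_combination (norm := module) 2 • Pfu
  have γ2 : ∀ c, 2 • γ c = 0 := fun c => by
    obtain ⟨i, c', e⟩ := dec c
    rw [hγ, show f c - c = i • u + 2 • c' by linear_combination (norm := module) e, map_add, map_nsmul,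
      map_nsmul, Pu]
    linear_combination (norm := module) h8 (P c')
  have γQ : ∀ w, γ w + ρ (γ w) + ρ (ρ (γ w)) = 0 := fun w => by
    rw [hγ, map_nsmul, map_nsmul]
    linear_combination (norm := module) (2 * m) • QP (f w - w)
  have rel : ∀ w, γ w + ρ (γ (ρ (ρ w))) = ρ (ρ (γ (ρ w))) := fun w => by
    obtain ⟨i, c, e⟩ := dec (ρ (ρ w))
    have e1 : ρ (f (ρ (ρ w))) = w + i • u + 2 • ρ c := by
      rw [e, map_add, map_add, r3, map_nsmul, map_nsmul, ru]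
    have e2 : f (ρ (f (ρ (ρ w)))) = ρ (ρ (f (ρ w))) := by
      have := fr (ρ (ρ (f (ρ w))))
      rwa [r3, f2] at this
    have e3 : ρ (ρ (γ (ρ w))) = (2 * m) • P (ρ (ρ (f (ρ w))) - w) := by
      rw [hγ, map_nsmul, map_nsmul, ← Pρ, ← Pρ, map_sub, map_sub, r3]
    have e4 : ρ (γ (ρ (ρ w))) = (2 * m) • P (ρ (f (ρ (ρ w))) - w) := by
      rw [hγ, map_nsmul, ← Pρ, map_sub, r3]
    have e5 : γ (i • u + 2 • ρ c) = 0 := by rw [map_add, map_nsmul, map_nsmul, γu, γ2, smul_zero, add_zero]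
    rw [e3, e4, ← e2, e1, hγ]
    rw [hγ] at e5
    simp only [map_add, map_sub, map_nsmul] at e5 ⊢
    linear_combination (norm := module) -e5
  have lin : ∀ (w : M) (i j k : ℕ), (4 * m) • w = (4 * m) • (i • u + j • a + k • ρ a) →
      γ w = j • γ a + k • γ (ρ a) ∧ (4 * m) • P w = j • ((4 * m) • a) + k • ρ ((4 * m) • a) := by
    intro w i j k e
    constructor
    · obtain ⟨y, hy⟩ := ker (w - (i • u + j • a + k • ρ a)) (by rw [smul_sub, e, sub_self])
      rw [show w = i • u + j • a + k • ρ a + 2 • y by linear_combination (norm := module) hy]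
      simp only [map_add, map_nsmul, γu, γ2, smul_zero, add_zero, zero_add]
    · rw [← map_nsmul, e]
      simp only [map_add, map_nsmul, Pu, Pρ, Pa]
      linear_combination (norm := module) j • h8 a + k • h8 (ρ a)
  have idem : ∀ w, ∃ c, γ w = (4 * m) • P c ∧ γ c = γ w ∧ (4 * m) • (f c - c) = -((4 * m) • (f w - w)) := by
    intro w
    obtain ⟨i, c, e⟩ := dec w
    have e1 := f2 w
    rw [e, map_add, map_add, map_nsmul, map_nsmul, e] at e1
    have e2 := congrArg P e1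
    have e3 : γ w = (4 * m) • P c := by
      rw [hγ, show f w - w = i • u + 2 • c by linear_combination (norm := module) e, map_add, map_nsmul,
        map_nsmul, Pu]
      module
    refine ⟨c, e3, ?_, ?_⟩
    · rw [e3, hγ, map_sub]
      simp only [map_add, map_nsmul, Pu] at e2
      linear_combination (norm := module) m • e2 - i • Pfu - h8 (P c)
    · rw [e]
      linear_combination (norm := module) (2 * m) • e1 - (2 * i) • fu'
  obtain ⟨A, hA⟩ : ∃ A, A = (4 * m) • a := ⟨_, rfl⟩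
  rw [← hA] at lin
  have A2 : 2 • A = 0 := by rw [hA]; linear_combination (norm := module) h8 a
  have AQ : A + ρ A + ρ (ρ A) = 0 := by
    rw [hA, map_nsmul, map_nsmul]; linear_combination (norm := module) (4 * m) • ar
  have ρi : ∀ x y, ρ x = ρ y → x = y := fun x y e => by rw [← r3 x, e, r3]
  have fix0 : ∀ x, 2 • x = 0 → x + ρ x + ρ (ρ x) = 0 → ρ x = x → x = 0 := fun x h2 hq e => by
    rw [e, e] at hq
    linear_combination (norm := module) hq - h2
  obtain ⟨x, hx⟩ : ∃ x, x = γ a := ⟨_, rfl⟩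
  have x2 : 2 • x = 0 := hx ▸ γ2 a
  have xQ : x + ρ x + ρ (ρ x) = 0 := hx ▸ γQ a
  have hy : γ (ρ a) = ρ (ρ x) := by
    have e1 := rel a
    have e2 : γ (ρ (ρ a)) = -γ a - γ (ρ a) := by
      rw [show ρ (ρ a) = -a - ρ a by linear_combination (norm := module) ar, map_sub, map_neg]
    rw [e2, map_sub, map_neg, ← hx] at e1
    have x2' : 2 • ρ x = 0 := by rw [← map_nsmul, x2, map_zero]
    have x2'' : 2 • ρ (ρ x) = 0 := by rw [← map_nsmul, x2', map_zero]
    linear_combination (norm := module) e1 + γQ (ρ a) - xQ + x2'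
  have val : ∀ w, ∃ j k : ℕ, j < 2 ∧ k < 2 ∧ γ w = j • A + k • ρ A ∧ γ w = j • x + k • ρ (ρ x) := fun w => by
    obtain ⟨c, e1, e2, -⟩ := idem w
    obtain ⟨i, j, k, hj, hk, e⟩ := hE c
    obtain ⟨l1, l2⟩ := lin c i j k e
    exact ⟨j, k, hj, hk, e1.trans l2, by rw [← e2, l1, ← hx, hy]⟩
  have f2x : ρ (ρ x) = x → x = 0 := fun e => fix0 x x2 xQ (by rw [← e, r3, e])
  have r0 : ∀ y, ρ (ρ y) = 0 → y = 0 := fun y e => by rw [← r3 y, e, map_zero]
  have x0 : x = 0 := by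
    obtain ⟨j, k, hj, hk, e1, e2⟩ := val a
    obtain ⟨j', k', hj', hk', e1', e2'⟩ := val (ρ a)
    rw [← hx] at e1 e2
    rw [hy] at e1' e2'
    interval_cases j <;> interval_cases k
    · simpa using e1
    · exact f2x (by simpa using e2.symm)
    · have e : x = A := by simpa using e1
      interval_cases j' <;> interval_cases k'
      · exact r0 x (by simpa using e1')
      · rw [e]
        rw [e] at e1'
        exact fix0 A A2 AQ (ρi _ _ (by simpa using e1'))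
      · exact f2x (by simpa using e2')
      · simpa using e2'
    · exact r0 x (by simpa using e2)
  obtain ⟨w, hw⟩ := fn
  obtain ⟨c, e1, e2, e3⟩ := idem w
  obtain ⟨i, j, k, -, -, e⟩ := hE c
  obtain ⟨l1, l2⟩ := lin c i j k e
  rw [← hx, hy, x0, map_zero, map_zero, smul_zero, smul_zero, add_zero] at l1
  rw [← e1, ← e2, l1] at l2
  have e4 : (4 * m) • c = (4 * i) • (m • u) := by
    rw [hA, map_nsmul] at l2
    linear_combination (norm := module) e - l2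
  have e5 : (4 * m) • f c = (4 * i) • (m • u) := by rw [← map_nsmul, e4, map_nsmul, fu]
  apply hw
  linear_combination (norm := module) e3 - e5 + e4

/-- The multiplicative form: `r`, `f` normalise the abelian group `W`. -/
theorem u3_grp {G : Type*} [Group G] {W : Subgroup G} (ab : ∀ a ∈ W, ∀ b ∈ W, a * b = b * a) {r f u a : G} (m : ℕ)
    (hr : ∀ w ∈ W, r⁻¹ * w * r ∈ W) (hf : ∀ w ∈ W, f * w * f⁻¹ ∈ W) (hu : u ∈ W) (ha : a ∈ W)
    (h8 : ∀ w ∈ W, w ^ (8 * m) = 1) (ker : ∀ w ∈ W, w ^ (4 * m) = 1 → ∃ y ∈ W, w = y * y)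
    (r3 : r ^ 3 = 1) (ru : r⁻¹ * u * r = u) (f2 : f * f ∈ W) (fr : (f * r⁻¹) ^ 3 ∈ W) (fu : f * u ^ m * f⁻¹ = u ^ m)
    (fz : ∀ w ∈ W, (f * w * f⁻¹ * w⁻¹) ^ (4 * m) = 1 ∨ (f * w * f⁻¹ * w⁻¹) ^ (4 * m) = u ^ (4 * m))
    (fn : ∃ w ∈ W, (f * w * f⁻¹ * w⁻¹) ^ (4 * m) ≠ 1)
    (hE : ∀ w ∈ W, ∃ i j k : ℕ, j < 2 ∧ k < 2 ∧ w ^ (4 * m) = (u ^ i * a ^ j * (r⁻¹ * a * r) ^ k) ^ (4 * m))
    (ar : a * (r⁻¹ * a * r) * (r * a * r⁻¹) = 1) : False := by
  let _ : CommGroup W := { (inferInstance : Group W) with mul_comm := fun a b => Subtype.ext (ab a a.2 b b.2) }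
  let ρ : W →* W := MonoidHom.mk' (fun w => ⟨r⁻¹ * w * r, hr w w.2⟩) fun a b => Subtype.ext (by
    simp only [Subgroup.coe_mul]; group)
  let κ : W →* W := MonoidHom.mk' (fun w => ⟨f * w * f⁻¹, hf w w.2⟩) fun a b => Subtype.ext (by
    simp only [Subgroup.coe_mul]; group)
  have cw : ∀ y ∈ W, ∀ w ∈ W, y * w * y⁻¹ = w := fun y hy w hw => by rw [ab y hy w hw]; group
  have r2 : r⁻¹ * r⁻¹ = r := by
    rw [← mul_inv_rev, inv_eq_iff_mul_eq_one, ← r3, pow_three']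
  refine u3_core (M := Additive W) (MonoidHom.toAdditive ρ) (MonoidHom.toAdditive κ) m
    (Additive.ofMul ⟨u, hu⟩) (Additive.ofMul ⟨a, ha⟩) ?_ ?_ ?_ ?_ ?_ ?_ ?_ ?_ ?_ ?_ ?_
  · intro w
    exact Subtype.ext (h8 _ w.toMul.2)
  · intro w hw
    obtain ⟨y, hy, e⟩ := ker _ w.toMul.2 (congrArg Subtype.val hw)
    exact ⟨Additive.ofMul ⟨y, hy⟩, Subtype.ext e⟩
  · intro w
    refine Subtype.ext ?_
    change r⁻¹ * (r⁻¹ * (r⁻¹ * (w.toMul : G) * r) * r) * r = w.toMul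
    rw [show r⁻¹ * (r⁻¹ * (r⁻¹ * (w.toMul : G) * r) * r) * r = (r ^ 3)⁻¹ * w.toMul * r ^ 3 by
      simp only [pow_three', mul_inv_rev, mul_assoc], r3]
    group
  · exact Subtype.ext ru
  · intro w
    refine Subtype.ext ?_
    change f * (f * (w.toMul : G) * f⁻¹) * f⁻¹ = w.toMul
    rw [show f * (f * (w.toMul : G) * f⁻¹) * f⁻¹ = f * f * w.toMul * (f * f)⁻¹ by
      simp only [mul_inv_rev, mul_assoc], cw _ f2 _ w.toMul.2]
  · intro w
    refine Subtype.ext ?_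
    change f * (r⁻¹ * (f * (r⁻¹ * (f * (r⁻¹ * (w.toMul : G) * r) * f⁻¹) * r) * f⁻¹) * r) * f⁻¹ = w.toMul
    rw [show f * (r⁻¹ * (f * (r⁻¹ * (f * (r⁻¹ * (w.toMul : G) * r) * f⁻¹) * r) * f⁻¹) * r) * f⁻¹ =
      (f * r⁻¹) ^ 3 * w.toMul * ((f * r⁻¹) ^ 3)⁻¹ by simp only [pow_succ, pow_zero]; group]
    exact cw _ fr _ w.toMul.2
  · exact Subtype.ext fu
  · intro w
    rcases fz _ w.toMul.2 with h | h
    · left
      refine Subtype.ext ?_
      rw [sub_eq_add_neg]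
      exact h
    · right
      refine Subtype.ext ?_
      rw [sub_eq_add_neg]
      exact h
  · obtain ⟨w, hw, h⟩ := fn
    refine ⟨Additive.ofMul ⟨w, hw⟩, fun e => h ?_⟩
    rw [sub_eq_add_neg] at e
    exact congrArg Subtype.val e
  · intro w
    obtain ⟨i, j, k, hj, hk, e⟩ := hE _ w.toMul.2
    exact ⟨i, j, k, hj, hk, Subtype.ext e⟩
  · refine Subtype.ext ?_
    change a * (r⁻¹ * a * r) * (r⁻¹ * (r⁻¹ * a * r) * r) = 1
    rw [← ar, show r⁻¹ * (r⁻¹ * a * r) * r = (r⁻¹ * r⁻¹) * a * (r⁻¹ * r⁻¹)⁻¹ by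
      simp only [mul_inv_rev, inv_inv, mul_assoc], r2]

end Cfsg.Agent.J1S
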